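import Cfsg.Agent.BG.Api4
import Cfsg.Agent.S0035
import Cfsg.Agent.S0042
set_option autoImplicit false
open Cfsg BG Subgroup
universe u
namespace Cfsg.Agent.H06.CS

/-- a proper subgroup containing the normalizers of its nontrivial `p`-subgroups is a Frobenius complement -/
theorem frob {G : Type u} [Group G] [Finite G] {M : Subgroup G} (h0 : M ≠ ⊥) (h1 : M ≠ ⊤)
    (h : ∀ (p : ℕ) (X : Subgroup G), p.Prime → IsPGroup p X → X ≠ ⊥ → X ≤ M → N_(X) ≤ M) : IsFrobeniusComplement M := by
  refine ⟨h0, h1, fun g hg => ?_⟩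
  by_contra hD
  rw [← cj_eq_smul] at hD
  obtain ⟨p, hp, hd⟩ := exists_prime_dvd_card hD
  obtain ⟨P, hP⟩ := sylow_exists hp (M ⊓ cj g M)
  have P0 : P ≠ ⊥ := hP.ne_bot' hp hd
  have l1 : P ≤ M := hP.le.trans inf_le_left
  have l2 : cj g⁻¹ P ≤ M := le_cj_iff.1 (hP.le.trans inf_le_right)
  have n1 : N_(P) ≤ M := h p P hp (hP.pg hp) P0 l1
  have n2 : N_(P) ≤ cj g M := by
    rw [le_cj_iff, cj_norm]
    refine h p _ hp ((isPi_singleton hp).1 (((isPi_singleton hp).2 (hP.pg hp)).cj _)) (fun e => P0 ?_) l2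
    rw [cj_eq_iff.1 e]; simp
  have hS : IsSylowIn p P ⊤ := hP.of_norm_le hp le_top (inf_le_right.trans (le_inf n1 n2))
  obtain ⟨m, hm, e⟩ := sylow_trans hp (hS.sub l1 le_top) ((hS.cj_of_mem (mem_top g⁻¹)).sub l2 le_top)
  have := n1 (cj_eq_cj_iff.1 e)
  exact hg (by simpa using inv_mem (mul_mem hm this))

theorem main (n : ℕ) : ∀ (G : Type u) [Group G] [Finite G], Nat.card G = n → ∀ A : Subgroup G, Group.IsSolvable A →
    (∀ S : Subgroup G, A ≤ S → Group.IsSolvable S → S ≤ C_(A)) → C_(A) = ⊤ := by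
  induction n using Nat.strong_induction_on with
  | _ n ih =>
  intro G _ _ hn A hA hc
  by_contra hM
  have A0 : A ≠ ⊥ := fun h => hM (by rw [h]; exact top_le_iff.1 le_cent_bot)
  have nos : ∀ N : Subgroup G, N.Normal → Group.IsSolvable N → N = ⊥ := by
    intro N hN hs
    by_contra h0
    have lt : Nat.card (G ⧸ N) < n := by
      rw [← hn, card_eq_card_quotient_mul_card_subgroup N]
      exact lt_mul_of_one_lt_right Nat.card_pos (one_lt_card h0)
    have pre : ∀ S : Subgroup (G ⧸ N), Group.IsSolvable S → Group.IsSolvable (S.comap (QuotientGroup.mk' N)) := fun S hS => by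
      have : N ≤ S.comap (QuotientGroup.mk' N) := fun x hx => by
        rw [mem_comap, QuotientGroup.mk'_apply, (QuotientGroup.eq_one_iff x).2 hx]; exact one_mem _
      refine solvable_of_ker_le_range (inclusion this) ((QuotientGroup.mk' N).subgroupComap S) ?_
      intro x hx
      exact ⟨⟨x, (QuotientGroup.eq_one_iff _).1 (congrArg Subtype.val hx)⟩, rfl⟩
    have h1 := ih _ lt (G ⧸ N) rfl (A.map (QuotientGroup.mk' N))
      (solvable_of_surjective ((QuotientGroup.mk' N).subgroupMap_surjective A)) fun S h1 h2 x hx => by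
        obtain ⟨y, rfl⟩ := QuotientGroup.mk'_surjective N x
        refine mem_cent.2 ?_
        rintro _ ⟨a, ha, rfl⟩
        rw [← map_mul, ← map_mul, mem_cent.1 (hc _ (map_le_iff_le_comap.1 h1) (pre S h2) hx) a ha]
    refine hM (top_le_iff.1 fun g _ => ?_)
    have h2 : Group.IsSolvable ↥(A.map (QuotientGroup.mk' N) ⊔ zpowers (QuotientGroup.mk' N g)) :=
      sol_sup (sol_of_abelian (abelian_of_cyclic (cyclic_zpowers _)))
        (solvable_of_surjective ((QuotientGroup.mk' N).subgroupMap_surjective A)) (le_norm_of_cent (h1 ▸ le_top))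
    exact hc _ (map_le_iff_le_comap.1 le_sup_left) (pre _ h2) (mem_sup_right (mem_zpowers _))
  have sub : ∀ H : Subgroup G, A ≤ H → H ≠ ⊤ → H ≤ C_(A) := by
    intro H h1 h2 x hx
    have lt : Nat.card H < n := by rw [← hn, ← card_top (G := G)]; exact card_lt (lt_top_iff_ne_top.2 h2)
    have h3 := ih _ lt H rfl (A.subgroupOf H) (solvable_of_solvable_injective (f := (subgroupOfEquivOfLe h1).toMonoidHom)
      (subgroupOfEquivOfLe h1).injective) fun S k1 k2 y hy => by
        have k3 := hc (S.map H.subtype) (by rw [← map_subgroupOf_eq_of_le h1]; exact map_mono k1)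
          (solvable_of_surjective (H.subtype.subgroupMap_surjective S)) ⟨y, hy, rfl⟩
        exact mem_cent.2 fun a ha => Subtype.ext (mem_cent.1 k3 a ha)
    exact mem_cent.2 fun a ha => congrArg Subtype.val (mem_cent.1 (h3.ge (mem_top ⟨x, hx⟩)) ⟨a, h1 ha⟩ ha)
  have hF := frob (ne_bot_mono A0 (hc A le_rfl hA)) hM fun p X hp pX X0 hX =>
    sub _ (le_norm_of_cent (cent_symm hX)) fun e => X0 (nos X (normalizer_eq_top_iff.1 e) (pg_sol hp pX))
  obtain ⟨N, e1, n1, nil⟩ := Cfsg.Agent.S0042.result _ hF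
  obtain ⟨N', e2, -, hc'⟩ := Cfsg.Agent.S0035.result _ hF
  have e3 : N' = ⊥ := by rw [← nos N n1 (sol_of_nil nil)]; exact SetLike.coe_injective (e2.trans e1.symm)
  have := hc'.sup_eq_top
  rw [e3, bot_sup_eq] at this
  exact hM this

end Cfsg.Agent.H06.CS
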