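import Cfsg.Agent.H06.FV0
set_option autoImplicit false
open Cfsg BG Subgroup
open scoped commutatorElement
universe u
namespace Cfsg.Agent.H06.PT

section defs
variable {Γ : Type u} [Group Γ]

/-- no `2`-subgroup of `H` acts nontrivially on a `3`-subgroup of `H` -/
def Od (H : Subgroup Γ) : Prop :=
  ∀ U D : Subgroup Γ, U ≤ H → D ≤ H → IsPGroup 3 U → IsPGroup 2 D → D ≤ N_(U) → D ≤ C_(U)

/-- the hypotheses of the theorem, inside an ambient group -/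
structure St (r : ℕ) (A G : Subgroup Γ) : Prop where
  rp : r.Prime
  ea : IsElementaryAbelian r A
  nG : A ≤ N_(G)
  rG : ¬ r ∣ Nat.card G
  uq : ∀ (q : ℕ) (X Y : Subgroup Γ), q.Prime → X ≤ G → Y ≤ G → IsPGroup q X → IsPGroup q Y → A ≤ N_(X) → A ≤ N_(Y) →
    IsPGroup q ↥(X ⊔ Y)
  od : ¬ 2 ∣ Nat.card ↥(G ⊓ C_(A))

/-- the minimal counterexample -/
structure Mn (r : ℕ) (A G : Subgroup Γ) : Prop extends St r A G where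
  simple : IsSimpleGroup G
  ns : ¬ Group.IsSolvable G
  sol : ∀ H : Subgroup Γ, H < G → A ≤ N_(H) → Group.IsSolvable H
  fa : A ⊓ C_(G) = ⊥

/-- the largest `A`-invariant `q`-subgroup of `H` -/
def Syl (q : ℕ) (A H : Subgroup Γ) : Subgroup Γ := sSup {X | X ≤ H ∧ IsPGroup q X ∧ A ≤ N_(X)}

/-- `a` and `b` generate `A` -/
def Ind (A : Subgroup Γ) (a b : Γ) : Prop := zpowers a ⊔ zpowers b = A

/-- rank two -/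
structure R2 (r : ℕ) (A G : Subgroup Γ) : Prop extends St r A G where
  c2 : Nat.card A = r ^ 2
  cm : ∀ a ∈ A, a ≠ 1 → ∀ (q : ℕ) (X : Subgroup Γ), q.Prime → X ≤ G ⊓ C_[a] → IsPGroup q X → A ≤ N_(X) →
    ⁅X, A⁆ ≤ piCoreOf {q} (G ⊓ C_[a])

/-- the largest subgroup of `Syl q` normalized by `Syl 2` -/
def Vq (A G : Subgroup Γ) (q : ℕ) : Subgroup Γ := sSup {X | X ≤ Syl q A G ∧ Syl 2 A G ≤ N_(X)}

def VV (A G : Subgroup Γ) : Subgroup Γ := ⨆ q ∈ {q : ℕ | q.Prime ∧ q ≠ 2}, Vq A G q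

def LL (A G : Subgroup Γ) : Subgroup Γ := (G ⊓ N_(Syl 2 A G)) ⊔ VV A G

/-- the centre of `Syl 2` -/
def ZT (A G : Subgroup Γ) : Subgroup Γ := Syl 2 A G ⊓ C_(Syl 2 A G)

end defs

def GLS : Prop := ∀ (Γ : Type u) [Group Γ] [Finite Γ] (s t r : ℕ) (V D B K : Subgroup Γ), s.Prime → t.Prime → r.Prime →
  s ≠ t → s ≠ r → t ≠ r → IsPGroup s V → IsPGroup t D → Nat.card B = r → B ≤ N_(V) → B ≤ N_(D) → D ≤ N_(V) →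
  ⁅D, B⁆ = D → (t = 2 → D ⊓ C_(B) = ⊥) → ⁅V, D⁆ = V → B ≤ N_(K) → D ≤ K →
  V ⊓ C_(B) ≤ (V ⊓ K) ⊔ (V ⊓ C_(D)) → V ≤ K

def R1S : Prop := ∀ (Γ : Type u) [Group Γ] [Finite Γ] (r q : ℕ) (R H X : Subgroup Γ), St r R H → Nat.card R = r →
  Group.IsSolvable H → q.Prime → X ≤ H → IsPGroup q X → R ≤ N_(X) → ⁅X, R⁆ ≤ piCoreOf {q} H

def L3S : Prop := ∀ (Γ : Type u) [Group Γ] [Finite Γ] (r s t : ℕ) (A G V U D : Subgroup Γ) (a : Γ), R2 r A G →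
  s.Prime → t.Prime → s ≠ t → V ≤ G → U ≤ G → D ≤ G → IsPGroup s V → IsPGroup s U → IsPGroup t D →
  A ≤ N_(V) → A ≤ N_(U) → A ≤ N_(D) → D ≤ N_(V) → U ≤ N_(V) → U ≤ N_(D) → a ∈ A → a ≠ 1 → U ≤ C_[a] →
  ⁅U, A⁆ = U → ⁅D, U⁆ = D → D ≤ C_(V)

def L2S : Prop := ∀ (Γ : Type u) [Group Γ] [Finite Γ] (r : ℕ) (A H : Subgroup Γ), St r A H → Nat.card A = r ^ 2 →
  Group.IsSolvable H → H ≤ N_(Syl 2 A H ⊔ piCoreOf {2}ᶜ H)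

def OddB : Prop := ∀ (G : Type u) [Group G] [Finite G] (P : Sylow 3 G),
  Subgroup.centralizer (pCore 3 G : Set G) ≤ pCore 3 G → Even (Nat.card G) →
  (∀ H : Subgroup G, (P : Subgroup G) ≤ H → H ≠ ⊤ → Odd (Nat.card H)) →
  (∀ K : Subgroup ↥(P : Subgroup G), K.Characteristic → K ≠ ⊥ → ¬ (K.map (P : Subgroup G).subtype).Normal) → False

def OddS : Prop := ∀ (Γ : Type u) [Group Γ] [Finite Γ] (G P : Subgroup Γ), IsSylowIn 3 P G →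
  (∀ K : Subgroup Γ, K ≤ P → K ≠ ⊥ → N_(P) ≤ N_(K) → Od (G ⊓ N_(K))) → Od G

def End0 : Prop := ∀ (Γ : Type u) [Group Γ] [Finite Γ] (r : ℕ) (A G T W : Subgroup Γ), Mn r A G →
  IsSylowIn 2 T G → A ≤ N_(T) → W ≤ T → W ≠ ⊥ → IsMulCommutative W →
  (∀ x ∈ W, ∀ g ∈ G, g * x * g⁻¹ ∈ T → g * x * g⁻¹ ∈ W) → False

def EndS : Prop := ∀ (Γ : Type u) [Group Γ] [Finite Γ] (r : ℕ) (A G T : Subgroup Γ), Mn r A G →
  IsSylowIn 2 T G → A ≤ N_(T) → ¬ Od G ∧ ∀ a ∈ A, T ≤ C_[a] → ¬ G ⊓ C_[a] ≤ N_(T)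

def MnS : Prop := ∀ (Γ : Type u) [Group Γ] [Finite Γ] (r : ℕ) (A G : Subgroup Γ), Mn r A G →
  (Nat.card A = r ∨ Nat.card A = r ^ 2) → False

def AllS : Prop := ∀ (Γ : Type u) [Group Γ] [Finite Γ] (r : ℕ) (A G : Subgroup Γ), St r A G → Group.IsSolvable G

/-- the minimal counterexample in rank two, with the local lemmas -/
structure M2 {Γ : Type u} [Group Γ] (r : ℕ) (A G : Subgroup Γ) : Prop extends Mn r A G where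
  r2 : R2 r A G
  gl : GLS.{u}
  l3 : L3S.{u}
  l2 : ∀ H : Subgroup Γ, H < G → A ≤ N_(H) → H ≤ N_(Syl 2 A H ⊔ piCoreOf {2}ᶜ H)
  t1 : ∀ a ∈ A, a ≠ 1 → ¬ Syl 2 A G ≤ C_[a]

def KS : Prop := ∀ (Γ : Type u) [Group Γ] [Finite Γ] (r : ℕ) (A G : Subgroup Γ), M2 r A G →
  ∀ H : Subgroup Γ, H < G → A ≤ N_(H) → 2 ∣ Nat.card H → H ≤ LL A G

def IIa : Prop := ∀ (Γ : Type u) [Group Γ] [Finite Γ] (r : ℕ) (A G : Subgroup Γ), M2 r A G → LL A G = G →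
  ZT A G ⊓ C_(VV A G) = ⊥ ∧ ∀ a ∈ A, G ⊓ N_(Syl 2 A G) ≤ N_(ZT A G ⊓ C_[a])

def IIb : Prop := ∀ (Γ : Type u) [Group Γ] [Finite Γ] (r : ℕ) (A G : Subgroup Γ), M2 r A G → LL A G = G →
  ZT A G ⊓ C_(VV A G) = ⊥ → (∀ a ∈ A, G ⊓ N_(Syl 2 A G) ≤ N_(ZT A G ⊓ C_[a])) → False

def IIIS : Prop := ∀ (Γ : Type u) [Group Γ] [Finite Γ] (r : ℕ) (A G : Subgroup Γ), M2 r A G → LL A G ≠ G →
  (∀ H : Subgroup Γ, H < G → A ≤ N_(H) → 2 ∣ Nat.card H → H ≤ LL A G) →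
  ∀ K : Subgroup Γ, K ≤ Syl 3 A G → K ≠ ⊥ → A ≤ N_(K) → Syl 3 A G ≤ N_(K) → Od (G ⊓ N_(K))

end Cfsg.Agent.H06.PT
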