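import Cfsg.Agent.H06.PT0
import Cfsg.Agent.S0058
set_option autoImplicit false
open Cfsg BG Subgroup
open scoped commutatorElement
universe u
namespace Cfsg.Agent.H06.PT

variable {Γ : Type u} [Group Γ] {r q s t w : ℕ} {A B G H K L X Y V W F D P : Subgroup Γ} {a b : Γ}

theorem syl_le : Syl q A H ≤ H := sSup_le fun _ h => h.1

theorem le_syl (h1 : X ≤ H) (h2 : IsPGroup q X) (h3 : A ≤ N_(X)) : X ≤ Syl q A H := le_sSup ⟨h1, h2, h3⟩

theorem St.pg (h : St r A G) : IsPGroup r A := h.ea.pg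

theorem St.ab (h : St r A G) : A ≤ C_(A) := abelian_iff.1 h.ea.abelian

theorem St.nc (h : St r A G) (ha : a ∈ A) : A ≤ N_(C_[a]) :=
  norm_cent1 (le_cent1_iff.2 (h.ab ha))

theorem St.nz (h : St r A G) (hB : B ≤ A) : A ≤ N_(B) := le_norm_of_abelian h.ea.abelian hB

theorem St.solA (h : St r A G) : Group.IsSolvable A := sol_of_abelian h.ea.abelian

theorem St.sub (h : St r A G) (hH : H ≤ G) (hA : A ≤ N_(H)) : St r A H :=
  ⟨h.rp, h.ea, hA, not_dvd_of_le h.rG hH, fun q X Y hq h1 h2 => h.uq q X Y hq (h1.trans hH) (h2.trans hH),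
    not_dvd_of_le h.od (inf_le_inf_right _ hH)⟩

theorem Ind.symm (h : Ind A a b) : Ind A b a := by unfold Ind at *; rw [sup_comm]; exact h

theorem Ind.l (h : Ind A a b) : a ∈ A := (h ▸ le_sup_left : zpowers a ≤ A) (mem_zpowers a)

theorem Ind.rr (h : Ind A a b) : b ∈ A := h.symm.l

theorem Ind.mul (h : Ind A a b) : Ind A a (a * b) := by
  unfold Ind at *
  refine le_antisymm (sup_le (zpowers_le.2 (Ind.l h)) (zpowers_le.2 (mul_mem (Ind.l h) (Ind.rr h)))) ?_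
  rw [← h]
  refine sup_le le_sup_left (zpowers_le.2 ?_)
  have h1 : a ∈ zpowers a ⊔ zpowers (a * b) := mem_sup_left (mem_zpowers a)
  have h2 : a * b ∈ zpowers a ⊔ zpowers (a * b) := mem_sup_right (mem_zpowers _)
  simpa using mul_mem (inv_mem h1) h2

theorem Ind.mul' (h : Ind A a b) : Ind A b (a * b) := by
  unfold Ind at *
  refine le_antisymm (sup_le (zpowers_le.2 (Ind.rr h)) (zpowers_le.2 (mul_mem (Ind.l h) (Ind.rr h)))) ?_
  rw [← h]
  refine sup_le (zpowers_le.2 ?_) le_sup_left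
  have h1 : b ∈ zpowers b ⊔ zpowers (a * b) := mem_sup_left (mem_zpowers b)
  have h2 : a * b ∈ zpowers b ⊔ zpowers (a * b) := mem_sup_right (mem_zpowers _)
  simpa using mul_mem h2 (inv_mem h1)

theorem Ind.cent (h : Ind A a b) : C_[a] ⊓ C_[b] = C_(A) := by
  rw [← cent_zpowers, ← cent_zpowers, ← cent_sup, h]

/-- if `a` centralizes `W` then `[W,b] = [W,A]` -/
theorem Ind.comm (h : Ind A a b) (hab : A ≤ C_(A)) (hW : W ≤ C_[a]) : ⁅W, zpowers b⁆ = ⁅W, A⁆ := by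
  have h1 : zpowers a ≤ C_(W) := zpowers_le.2 (le_cent1_iff.1 hW)
  have h2 : zpowers a ≤ N_(⁅zpowers b, W⁆) :=
    norm_comm (le_norm_of_cent (le_cent_mono hab (zpowers_le.2 h.l) (zpowers_le.2 h.rr))) (le_norm_of_cent h1)
  have := comm_sup_cent (A := zpowers b) (K := W) h1 h2
  rw [h.symm] at this
  rw [comm_comm, ← this, comm_comm]

variable [Finite Γ]

theorem St.cop (h : St r A G) (hH : H ≤ G) : (Nat.card A).Coprime (Nat.card H) :=
  pg_coprime h.rp h.pg (not_dvd_of_le h.rG hH)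

theorem St.cop' (h : St r A G) (hB : B ≤ A) (hH : H ≤ G) : (Nat.card B).Coprime (Nat.card H) :=
  coprime_mono (h.cop hH) hB le_rfl

theorem St.two (h : St r A G) (hX : X ≤ G) (h2 : IsPGroup 2 X) : X ⊓ C_(A) = ⊥ :=
  pg_eq_bot Nat.prime_two (pg_le h2 inf_le_left) (not_dvd_of_le h.od (inf_le_inf_right _ hX))

theorem St.two' (h : St r A G) (hX : X ≤ G) (h2 : IsPGroup 2 X) (hA : A ≤ N_(X)) : ⁅X, A⁆ = X :=
  coprime_comm_eq_of_cent_bot hA (h.cop hX) (Or.inl h.solA) (h.two hX h2)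

theorem St.split (h : St r A G) (hX : X ≤ G) (hA : A ≤ N_(X)) : ⁅X, A⁆ ⊔ (X ⊓ C_(A)) = X :=
  coprime_comm_sup_cent hA (h.cop hX) (Or.inl h.solA)

theorem St.cc (h : St r A G) (hX : X ≤ G) (hA : A ≤ N_(X)) : ⁅⁅X, A⁆, A⁆ = ⁅X, A⁆ :=
  coprime_comm_comm hA (h.cop hX) (Or.inl h.solA)

/-- a prime dividing a nontrivial subgroup of `G` is not `r` -/
theorem St.ne_r (h : St r A G) (hq : q.Prime) (hX : X ≤ G) (h2 : IsPGroup q X) (h0 : X ≠ ⊥) : q ≠ r := by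
  rintro rfl; exact h.rG ((pg_dvd hq h2 h0).trans (card_dvd hX))

theorem St.syl_eq_of (h : St r A G) (hq : q.Prime) (hP : IsSylowIn q P G) (hA : A ≤ N_(P)) : Syl q A G = P := by
  refine le_antisymm (sSup_le fun X hX => ?_) (le_syl hP.le (hP.pg hq) hA)
  have := hP.eq_of_pg hq (h.uq q P X hq hP.le hX.1 (hP.pg hq) hX.2.1 hA hX.2.2) le_sup_left (sup_le hP.le hX.1)
  exact this ▸ le_sup_right

theorem St.syl_both (h : St r A G) (hq : q.Prime) : IsSylowIn q (Syl q A G) G ∧ A ≤ N_(Syl q A G) := by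
  obtain ⟨P, hP, hA⟩ := coprime_sylow_exists hq (Or.inl h.solA) h.nG (h.cop le_rfl)
  rw [h.syl_eq_of hq hP hA]; exact ⟨hP, hA⟩

theorem St.syl (h : St r A G) (hq : q.Prime) : IsSylowIn q (Syl q A G) G := (h.syl_both hq).1

theorem St.syl_n (h : St r A G) (hq : q.Prime) : A ≤ N_(Syl q A G) := (h.syl_both hq).2

theorem St.syl_pg (h : St r A G) (hq : q.Prime) : IsPGroup q (Syl q A G) := (h.syl hq).pg hq

theorem St.syl_eq (h : St r A G) (hq : q.Prime) (hH : H ≤ G) (hA : A ≤ N_(H)) : Syl q A H = H ⊓ Syl q A G :=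
  le_antisymm (le_inf syl_le (le_syl (syl_le.trans hH) ((h.sub hH hA).syl_pg hq) ((h.sub hH hA).syl_n hq)))
    (le_syl inf_le_left (pg_le (h.syl_pg hq) inf_le_right) (norm_inf hA (h.syl_n hq)))

theorem St.syl_mono (h : St r A G) (hq : q.Prime) (hH : H ≤ G) (hA : A ≤ N_(H)) : Syl q A H ≤ Syl q A G := by
  rw [h.syl_eq hq hH hA]; exact inf_le_right

/-- elements normalizing `G` and centralizing `A` normalize the invariant Sylow subgroups -/
theorem St.c_n' (h : St r A G) (hq : q.Prime) : N_(G) ⊓ C_(A) ≤ N_(Syl q A G) := by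
  intro c hc
  rw [← cj_eq_self_iff]
  refine (h.syl_eq_of hq ((h.syl hq).cj_of_norm hc.1) ?_).symm
  rw [← cj_norm, ← cj_of_mem_cent hc.2]
  exact cj_mono c (by rw [cj_of_mem_cent hc.2]; exact h.syl_n hq)

theorem St.c_n (h : St r A G) (hq : q.Prime) : G ⊓ C_(A) ≤ N_(Syl q A G) :=
  (inf_le_inf_right _ (le_norm G)).trans (h.c_n' hq)

theorem St.gen (h : St r A G) (hK : ∀ q : ℕ, q.Prime → Syl q A G ≤ K) : G ≤ K :=
  le_of_sylows fun q hq _ => ⟨_, h.syl hq, hK q hq⟩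

theorem St.syl_n2 (h : St r A H) (hq : q.Prime) (hs : Group.IsSolvable H) (hD : D ≤ N_(H)) (hA : A ≤ N_(D))
    (hc : (Nat.card D).Coprime (Nat.card H)) : D ≤ N_(Syl q A H) := by
  have hc' : (Nat.card ↥(D ⊔ A)).Coprime (Nat.card H) :=
    Nat.Coprime.coprime_dvd_left (card_sup_dvd hA) (Nat.Coprime.mul_left hc (h.cop le_rfl))
  obtain ⟨P, hP, hn⟩ := coprime_sylow_exists hq (Or.inr hs) (sup_le hD h.nG) hc'
  rw [h.syl_eq_of hq hP (le_sup_right.trans hn)]; exact le_sup_left.trans hn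

theorem St.map {Γ' : Type u} [Group Γ'] [Finite Γ'] (h : St r A G) (φ : Γ →* Γ') : St r (A.map φ) (G.map φ) := by
  have hn : ∀ {X : Subgroup Γ}, A ≤ N_(X) → A.map φ ≤ N_(X.map φ) := fun hX =>
    (map_mono hX).trans (le_normalizer_map φ)
  have hpre : ∀ X : Subgroup Γ', A.map φ ≤ N_(X) → A ≤ N_(G ⊓ X.comap φ) := fun X hX =>
    norm_inf h.nG ((map_le_iff_le_comap.1 hX).trans (le_normalizer_comap φ))
  have hmap : ∀ X : Subgroup Γ', X ≤ G.map φ → (G ⊓ X.comap φ).map φ = X := fun X hX => by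
    refine le_antisymm ?_ fun x hx => ?_
    · rintro _ ⟨y, hy, rfl⟩; exact hy.2
    · obtain ⟨y, hy, rfl⟩ := hX hx; exact ⟨y, ⟨hy, hx⟩, rfl⟩
  refine ⟨h.rp, ⟨?_, ?_⟩, hn h.nG, fun hd => h.rG (hd.trans (card_map_dvd _ _)), ?_, ?_⟩
  · haveI := h.ea.1; infer_instance
  · rintro _ ⟨a, ha, rfl⟩; rw [← map_pow, h.ea.2 a ha, map_one]
  · intro q X Y hq hX hY pX pY nX nY
    have key : ∀ X : Subgroup Γ', X ≤ G.map φ → IsPGroup q X → A.map φ ≤ N_(X) → X ≤ (Syl q A G).map φ := by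
      intro X hX pX nX
      have h1 := (h.sub inf_le_left (hpre X nX)).syl hq
      have h2 := h1.map φ
      rw [hmap X hX] at h2
      have h3 := h2.eq_self ((isPi_singleton hq).2 pX)
      rw [← h3]
      exact map_mono (h.syl_mono hq inf_le_left (hpre X nX))
    exact pg_le ((h.syl_pg hq).map φ) (sup_le (key X hX pX nX) (key Y hY pY nY))
  · intro hd
    have hY := hpre (G.map φ ⊓ C_(A.map φ)) (norm_inf (hn h.nG) (norm_cent (le_norm _)))
    have h1 := h.split inf_le_left hY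
    have h2 := hmap (G.map φ ⊓ C_(A.map φ)) inf_le_left
    have h3 := congrArg (Subgroup.map φ) h1
    rw [Subgroup.map_sup, map_commutator, h2, comm_eq_bot.2 inf_le_right, bot_sup_eq] at h3
    rw [← h3] at hd
    exact h.od ((hd.trans (card_map_dvd _ _)).trans (card_dvd (inf_le_inf_right _ inf_le_left)))

omit [Finite Γ] in
theorem St.sgo (h : St r A G) (hA : A ≤ L) (hG : G ≤ L) : St r (A.subgroupOf L) (G.subgroupOf L) := by
  have hi := L.subtype_injective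
  have hc : ∀ X : Subgroup L, Nat.card (X.map L.subtype) = Nat.card X := fun X => card_map_of_injective hi
  have eA : (A.subgroupOf L).map L.subtype = A := map_subgroupOf_eq_of_le hA
  have eG : (G.subgroupOf L).map L.subtype = G := map_subgroupOf_eq_of_le hG
  have hn : ∀ {X : Subgroup L}, A.subgroupOf L ≤ N_(X) → A ≤ N_(X.map L.subtype) := fun hX => by
    rw [← eA]; exact (map_mono hX).trans (le_normalizer_map _)
  refine ⟨h.rp, ⟨?_, ?_⟩, ?_, ?_, ?_, ?_⟩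
  · haveI := h.ea.1; infer_instance
  · intro a ha; exact Subtype.ext (h.ea.2 a ha)
  · exact (comap_mono h.nG).trans (le_normalizer_comap _)
  · rw [← hc, eG]; exact h.rG
  · intro q X Y hq hX hY pX pY nX nY
    have := h.uq q (X.map L.subtype) (Y.map L.subtype) hq (eG ▸ map_mono hX) (eG ▸ map_mono hY) (pX.map _) (pY.map _)
      (hn nX) (hn nY)
    rw [← Subgroup.map_sup] at this
    exact this.of_equiv (equivMapOfInjective _ _ hi).symm
  · intro hd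
    rw [← hc] at hd
    refine h.od (hd.trans (card_dvd ?_))
    rintro _ ⟨x, hx, rfl⟩
    refine ⟨hx.1, mem_cent.2 fun a ha => ?_⟩
    exact congrArg Subtype.val (mem_cent.1 hx.2 ⟨a, hA ha⟩ ha)

theorem St.ncyc (h : St r A G) (hc : Nat.card A = r ^ 2) : ¬ IsCyclic A := fun hA => by
  have := h.ea.card_le_of_cyclic h.rp hA
  have h2 := h.rp.two_le
  rw [hc] at this; nlinarith

theorem St.ind_ne (h : St r A G) (hc : Nat.card A = r ^ 2) (hi : Ind A a b) : a ≠ 1 := by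
  rintro rfl
  apply h.ncyc hc
  unfold Ind at hi
  rw [zpowers_one_eq_bot, bot_sup_eq] at hi
  exact hi ▸ cyclic_zpowers b

theorem St.ind_of (h : St r A G) (hc : Nat.card A = r ^ 2) (ha : a ∈ A) (h1 : a ≠ 1) (hb : b ∈ A) (hn : b ∉ zpowers a) :
    Ind A a b := by
  have c1 := h.ea.card_zpowers h.rp ha h1
  have hb1 : b ≠ 1 := by rintro rfl; exact hn (one_mem _)
  have c2 := h.ea.card_zpowers h.rp hb hb1
  refine eq_of_le_of_card_eq (sup_le (zpowers_le.2 ha) (zpowers_le.2 hb)) ?_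
  rw [card_sup_of_disj ((zpowers_le.2 hb).trans (h.nz (zpowers_le.2 ha))), c1, c2, hc, sq]
  rw [inf_comm]
  exact inf_eq_bot_of_prime (c2 ▸ h.rp) fun hh => hn (hh (mem_zpowers b))

theorem St.ind_or (h : St r A G) (hc : Nat.card A = r ^ 2) (ha : a ∈ A) (h1 : a ≠ 1) (hb : b ∈ A) (h2 : b ≠ 1) :
    Ind A a b ∨ C_[a] = C_[b] := by
  by_cases hn : b ∈ zpowers a
  · right
    have c1 := h.ea.card_zpowers h.rp ha h1
    rw [cent1_eq_of_prime (c1 ▸ h.rp) hn h2, cent_zpowers]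
  · exact Or.inl (h.ind_of hc ha h1 hb hn)

theorem St.ind_ex (h : St r A G) (hc : Nat.card A = r ^ 2) (ha : a ∈ A) (h1 : a ≠ 1) : ∃ b, Ind A a b := by
  by_contra hn
  apply h.ncyc hc
  have : zpowers a = A := le_antisymm (zpowers_le.2 ha) fun b hb => by
    by_contra h2; exact hn ⟨b, h.ind_of hc ha h1 hb h2⟩
  exact this ▸ cyclic_zpowers a

theorem St.dec (h : St r A G) (hc : Nat.card A = r ^ 2) (hX : X ≤ G) (hA : A ≤ N_(X))
    (hK : ∀ a ∈ A, a ≠ 1 → X ⊓ C_[a] ≤ K) : X ≤ K := by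
  haveI := h.ea.1
  rw [← Cfsg.Agent.S0058.result A X (h.ncyc hc) hA (h.cop hX)]
  exact iSup₂_le fun a ha => hK a ha.1 ha.2

theorem R2.ne (h : R2 r A G) (hi : Ind A a b) : a ≠ 1 := h.toSt.ind_ne h.c2 hi

theorem R2.or (h : R2 r A G) (ha : a ∈ A) (h1 : a ≠ 1) (hb : b ∈ A) (h2 : b ≠ 1) : Ind A a b ∨ C_[a] = C_[b] :=
  h.toSt.ind_or h.c2 ha h1 hb h2

theorem R2.ex (h : R2 r A G) (ha : a ∈ A) (h1 : a ≠ 1) : ∃ b, Ind A a b := h.toSt.ind_ex h.c2 ha h1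

theorem R2.dec (h : R2 r A G) (hX : X ≤ G) (hA : A ≤ N_(X)) (hK : ∀ a ∈ A, a ≠ 1 → X ⊓ C_[a] ≤ K) : X ≤ K :=
  h.toSt.dec h.c2 hX hA hK

/-- generation by the `[X ⊓ C(a), A]` and `C(A)` -/
theorem R2.dec' (h : R2 r A G) (hX : X ≤ G) (hA : A ≤ N_(X)) (hK : ∀ a ∈ A, a ≠ 1 → ⁅X ⊓ C_[a], A⁆ ≤ K)
    (hC : X ⊓ C_(A) ≤ K) : X ≤ K := by
  refine h.dec hX hA fun a ha h1 => ?_
  rw [← h.toSt.split (inf_le_left.trans hX) (norm_inf hA (h.toSt.nc ha))]
  exact sup_le (hK a ha h1) ((inf_le_inf_right _ inf_le_left).trans hC)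

theorem R2.dec2 (h : R2 r A G) (hq : q.Prime) (hX : X ≤ G) (pX : IsPGroup q X) (hA : A ≤ N_(X)) (ha : a ∈ A) (h1 : a ≠ 1)
    (hK : ∀ b, Ind A a b → ⁅X ⊓ C_[b], A⁆ ≤ K) : ⁅X, zpowers a⁆ ≤ K := by
  have hz : zpowers a ≤ A := zpowers_le.2 ha
  set X1 := ⁅X, zpowers a⁆ with hX1
  have l1 : X1 ≤ X := comm_le_left (hz.trans hA)
  have n1 : A ≤ N_(X1) := norm_comm hA (h.toSt.nz hz)
  have e1 : ⁅X1, zpowers a⁆ = X1 :=
    coprime_comm_comm (hz.trans hA) (h.toSt.cop' hz hX) (Or.inl (sol_of_le h.toSt.solA hz))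
  set M : Subgroup Γ := sSup {Y | Y ≤ X1 ⊓ K ∧ A ≤ N_(Y)} with hM
  have lM : M ≤ X1 ⊓ K := sSup_le fun _ hY => hY.1
  have nM : A ≤ N_(M) := le_norm_of_cj_le fun c hc => by
    rw [cj_le_iff]
    refine sSup_le fun Y hY => ?_
    rw [← cj_le_iff, cj_of_mem_norm (hY.2 hc)]
    exact le_sSup hY
  set N := M ⊔ frattiniOf X1 with hN
  have p1 : IsPGroup q X1 := pg_le pX l1
  have lN : N ≤ X1 := sup_le (lM.trans inf_le_left) (phi_le _)
  have nN : X1 ≤ N_(N) := le_norm_of_der_le ((der_le_phi hq p1).trans le_sup_right) lN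
  have aN : A ≤ N_(N) := norm_sup nM (norm_phi n1)
  have g1 : X1 ≤ N ⊔ (X1 ⊓ C_[a]) := by
    refine h.dec' (l1.trans hX) n1 (fun b hb hb1 => ?_) ?_
    · rcases h.or ha h1 hb hb1 with hi | he
      · refine le_sup_of_le_left (le_sup_of_le_left (le_sSup ⟨le_inf ?_ ?_, ?_⟩))
        · exact (comm_le_left (norm_inf n1 (h.toSt.nc hb))).trans inf_le_left
        · exact (comm_mono (inf_le_inf_right _ l1) le_rfl).trans (hK b hi)
        · exact right_le_norm_comm _ _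
      · rw [← he]
        exact le_sup_of_le_right (comm_le_left (norm_inf n1 (h.toSt.nc ha)))
    · exact le_sup_of_le_right (inf_le_inf_left _ (cent_le_cent1 ha))
  have g2 : X1 ≤ N := by
    rw [← e1]
    refine (comm_mono g1 le_rfl).trans (comm_sup_le (le_norm _) (inf_le_left.trans nN) (comm_le_left (hz.trans aN)) ?_)
    rw [comm_eq_bot.2 (by rw [cent_zpowers]; exact inf_le_right)]; exact bot_le
  have := eq_of_le_sup_phi (lM.trans inf_le_left) g2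
  rw [← this]; exact lM.trans inf_le_right

theorem R2.c1 (h : R2 r A G) (hs : s.Prime) (ht : t.Prime) (hst : s ≠ t) (ha : a ∈ A) (h1 : a ≠ 1)
    (hX : X ≤ G ⊓ C_[a]) (hY : Y ≤ G ⊓ C_[a]) (pX : IsPGroup s X) (pY : IsPGroup t Y) (nX : A ≤ N_(X)) (nY : A ≤ N_(Y)) :
    ⁅X, A⁆ ≤ C_(⁅Y, A⁆) :=
  le_cent_mono (pcore_cent (by simpa using hst) (G ⊓ C_[a])) (h.cm a ha h1 s X hs hX pX nX) (h.cm a ha h1 t Y ht hY pY nY)

theorem R2.c2' (h : R2 r A G) (hs : s.Prime) (hw : w.Prime) (hsw : s ≠ w) (ha : a ∈ A) (h1 : a ≠ 1)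
    (hV : V ≤ G) (pV : IsPGroup s V) (hW : W ≤ G ⊓ C_[a]) (pW : IsPGroup w W) (nW : A ≤ N_(W)) (eW : ⁅W, A⁆ = W)
    (hWV : W ≤ N_(V)) : W ≤ C_(V ⊓ C_[a]) := by
  have h2 := h.cm a ha h1 w W hw hW pW nW
  rw [eW] at h2
  rw [← comm_eq_bot, eq_bot_iff, ← BG.inf_eq_bot_of_coprime (pg_coprime_ne hs hw pV (pcore_pg hw (G ⊓ C_[a])) hsw)]
  refine le_inf ((comm_mono le_rfl inf_le_left).trans (comm_le_right hWV)) ((comm_mono h2 le_rfl).trans (comm_le_left ?_))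
  exact (inf_le_inf_right _ hV).trans (le_norm_pcore _ _)

theorem R2.gk (h : R2 r A G) (hG : GLS.{u}) (hs : s.Prime) (hw : w.Prime) (hsw : s ≠ w) (hi : Ind A a b)
    (hV : V ≤ G) (pV : IsPGroup s V) (nV : A ≤ N_(V)) (hW : W ≤ G ⊓ C_[a]) (pW : IsPGroup w W) (nW : A ≤ N_(W))
    (eW : ⁅W, A⁆ = W) (hWV : W ≤ N_(V)) (eV : ⁅V, W⁆ = V) (nK : A ≤ N_(K)) (hWK : W ≤ K)
    (hK : ⁅V ⊓ C_[b], A⁆ ≤ K) : V ≤ K := by
  by_cases hV0 : V = ⊥
  · rw [hV0]; exact bot_le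
  have hW0 : W ≠ ⊥ := by rintro rfl; rw [commutator_bot_right] at eV; exact hV0 eV.symm
  have hz : zpowers b ≤ A := zpowers_le.2 hi.rr
  have hWa : W ≤ C_[a] := hW.trans inf_le_right
  have hWG : W ≤ G := hW.trans inf_le_left
  refine hG Γ s w r V W (zpowers b) K hs hw h.rp hsw (h.toSt.ne_r hs hV pV hV0) (h.toSt.ne_r hw hWG pW hW0) pV pW
    (h.ea.card_zpowers h.rp hi.rr (h.ne hi.symm)) (hz.trans nV) (hz.trans nW) hWV
    (by rw [hi.comm h.toSt.ab hWa, eW]) ?_ eV (hz.trans nK) hWK ?_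
  · rintro rfl
    rw [eq_bot_iff, ← h.toSt.two hWG pW, cent_zpowers, ← hi.cent]
    exact le_inf inf_le_left (le_inf (inf_le_left.trans hWa) inf_le_right)
  · rw [cent_zpowers, ← h.toSt.split (inf_le_left.trans hV) (norm_inf nV (h.toSt.nc hi.rr))]
    refine sup_le_sup (le_inf ((comm_le_left (norm_inf nV (h.toSt.nc hi.rr))).trans inf_le_left) hK)
      (le_inf (inf_le_left.trans inf_le_left) ?_)
    refine cent_symm ((h.c2' hs hw hsw hi.l (h.ne hi) hV pV hW pW nW eW hWV).trans (cent_anti ?_))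
    exact le_inf (inf_le_left.trans inf_le_left) (inf_le_right.trans (cent_le_cent1 hi.l))

theorem R2.gc (h : R2 r A G) (hG : GLS.{u}) (hs : s.Prime) (hw : w.Prime) (ht : t.Prime) (hsw : s ≠ w) (hst : s ≠ t)
    (hi : Ind A a b) (hV : V ≤ G) (pV : IsPGroup s V) (nV : A ≤ N_(V)) (hW : W ≤ G ⊓ C_[a]) (pW : IsPGroup w W)
    (nW : A ≤ N_(W)) (eW : ⁅W, A⁆ = W) (hWV : W ≤ N_(V)) (eV : ⁅V, W⁆ = V) (hF : F ≤ G ⊓ C_[b]) (pF : IsPGroup t F)
    (nF : A ≤ N_(F)) (eF : ⁅F, A⁆ = F) (hWF : W ≤ C_(F)) : V ≤ C_(F) := by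
  refine h.gk hG hs hw hsw hi hV pV nV hW pW nW eW hWV eV (norm_cent nF) hWF ?_
  rw [← eF]
  exact h.c1 hs ht hst hi.rr (h.ne hi.symm) (inf_le_inf_right _ hV) hF (pg_le pV inf_le_left) pF
    (norm_inf nV (h.toSt.nc hi.rr)) nF

theorem n1 (h1 : R1S.{u}) (h : St r A G) (hc : Nat.card A = r ^ 2)
    (hs : ∀ a ∈ A, a ≠ 1 → Group.IsSolvable ↥(G ⊓ C_[a])) : R2 r A G := by
  refine ⟨h, hc, fun a ha ha1 q X hq hX pX nX => ?_⟩
  obtain ⟨b, hi⟩ := h.ind_ex hc ha ha1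
  have hz : zpowers b ≤ A := zpowers_le.2 hi.rr
  have inv : ∀ Y ≤ G ⊓ C_[a], zpowers b ≤ N_(Y) → A ≤ N_(Y) := fun Y hY hn => by
    rw [← hi]
    exact sup_le (le_norm_of_cent (zpowers_le.2 (le_cent1_iff.1 (hY.trans inf_le_right)))) hn
  have hS : St r (zpowers b) (G ⊓ C_[a]) := by
    refine ⟨h.rp, h.ea.of_le hz, hz.trans (norm_inf h.nG (h.nc ha)), not_dvd_of_le h.rG inf_le_left,
      fun q X Y hq hX hY pX pY nX nY => h.uq q X Y hq (hX.trans inf_le_left) (hY.trans inf_le_left) pX pY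
        (inv X hX nX) (inv Y hY nY), ?_⟩
    rw [cent_zpowers, inf_assoc, hi.cent]; exact h.od
  rw [← hi.comm h.ab (hX.trans inf_le_right)]
  exact h1 Γ r q _ _ X hS (h.ea.card_zpowers h.rp hi.rr (h.ind_ne hc hi.symm)) (hs a ha ha1) hq hX pX (hz.trans nX)

omit [Finite Γ] in
theorem Mn.lt (h : Mn r A G) (hK : K ≤ G) (h0 : K ≠ ⊥) (hs : Group.IsSolvable K) : G ⊓ N_(K) < G := by
  refine lt_of_le_of_ne inf_le_left fun he => ?_
  have hn : G ≤ N_(K) := inf_eq_left.1 he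
  haveI := h.simple
  haveI : (K.subgroupOf G).Normal := (normal_subgroupOf_iff_le_normalizer hK).2 hn
  rcases Subgroup.Normal.eq_bot_or_eq_top this with h1 | h1
  · exact h0 (by rw [← inf_eq_left.2 hK]; exact subgroupOf_eq_bot.1 h1 |>.eq_bot)
  · exact h.ns (sol_of_le hs (subgroupOf_eq_top.1 h1))

omit [Finite Γ] in
theorem Mn.ca (h : Mn r A G) (ha : a ∈ A) (h1 : a ≠ 1) : G ⊓ C_[a] < G := by
  refine lt_of_le_of_ne inf_le_left fun he => h1 ?_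
  exact eq_one_of_mem_of_disj h.fa ha (le_cent1_iff.1 (inf_eq_left.1 he))

omit [Finite Γ] in
theorem Mn.na (h : Mn r A G) : ¬ IsMulCommutative G := fun h1 => h.ns (sol_of_abelian h1)

theorem vq_le : Vq A G q ≤ Syl q A G := sSup_le fun _ h => h.1

theorem le_vq (h1 : X ≤ Syl q A G) (h2 : Syl 2 A G ≤ N_(X)) : X ≤ Vq A G q := le_sSup ⟨h1, h2⟩

theorem vq_T : Syl 2 A G ≤ N_(Vq A G q) := le_norm_of_cj_le fun c hc => by
  rw [cj_le_iff]
  refine sSup_le fun Y hY => ?_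
  rw [← cj_le_iff, cj_of_mem_norm (hY.2 hc)]
  exact le_sSup hY

/-- whatever normalizes `Syl 2` and `Syl q` normalizes `Vq q` -/
theorem vq_n (h1 : X ≤ N_(Syl q A G)) (h2 : X ≤ N_(Syl 2 A G)) : X ≤ N_(Vq A G q) := le_norm_of_cj_le fun c hc => by
  rw [cj_le_iff]
  refine sSup_le fun Y hY => ?_
  rw [← cj_le_iff]
  refine le_vq (cj_le_of_mem_norm hY.1 (h1 hc)) ?_
  rw [← cj_norm, ← cj_of_mem_norm (h2 hc)]
  exact cj_mono c hY.2

theorem vq_vv (hq : q.Prime) (h2 : q ≠ 2) : Vq A G q ≤ VV A G := le_iSup₂_of_le q ⟨hq, h2⟩ le_rfl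

theorem vv_le (h : ∀ q : ℕ, q.Prime → q ≠ 2 → Vq A G q ≤ K) : VV A G ≤ K := iSup₂_le fun q hq => h q hq.1 hq.2

theorem St.vq_A (h : St r A G) (hq : q.Prime) : A ≤ N_(Vq A G q) := vq_n (h.syl_n hq) (h.syl_n Nat.prime_two)

theorem St.vq_pg (h : St r A G) (hq : q.Prime) : IsPGroup q (Vq A G q) := pg_le (h.syl_pg hq) vq_le

theorem vq_G : Vq A G q ≤ G := vq_le.trans syl_le

theorem ll_le : LL A G ≤ G := sup_le inf_le_left (vv_le fun _ _ _ => vq_G)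

theorem vv_n (h : ∀ q : ℕ, q.Prime → X ≤ N_(Syl q A G)) : X ≤ N_(VV A G) := le_norm_of_cj_le fun c hc => by
  rw [cj_le_iff]
  refine vv_le fun q hq h2 => ?_
  rw [← cj_le_iff, cj_of_mem_norm (vq_n (h q hq) (h 2 Nat.prime_two) hc)]
  exact vq_vv hq h2

theorem St.ll_A (h : St r A G) : A ≤ N_(LL A G) :=
  norm_sup (norm_inf h.nG (norm_norm (h.syl_n Nat.prime_two))) (vv_n fun _ hq => h.syl_n hq)

end Cfsg.Agent.H06.PT
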