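import Cfsg.Agent.H06.PT1
set_option autoImplicit false
open Cfsg BG Subgroup
open scoped commutatorElement
universe u
namespace Cfsg.Agent.H06.PT

variable {Γ : Type u} [Group Γ] [Finite Γ] {r q s t w : ℕ} {A B G H K L X Y V W F D P T : Subgroup Γ} {a b : Γ}

/-- Thompson's `A × B` lemma in the form needed here -/
theorem axb (hq : q.Prime) (pT : IsPGroup q T) (hB : B ≤ N_(T)) (hc : (Nat.card B).Coprime (Nat.card T))
    (h : T ⊓ C_(T ⊓ C_(B)) ≤ C_(B)) : T ≤ C_(B) := by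
  have e : T ⊓ C_(B) = T := by
    refine nil_eq_of_norm_le (pg_nil hq pT) inf_le_left (le_inf inf_le_left ?_)
    set T0 := T ⊓ C_(B)
    have n0 : B ≤ N_(T0) := norm_inf hB (norm_cent (le_norm B))
    have n1 : B ≤ N_(T ⊓ N_(T0)) := norm_inf hB (norm_norm n0)
    have h1 : ⁅⁅T ⊓ N_(T0), T0⁆, B⁆ = ⊥ := comm_eq_bot.2 ((comm_le_right inf_le_right).trans inf_le_right)
    have h2 : ⁅⁅T0, B⁆, T ⊓ N_(T0)⁆ = ⊥ := by rw [comm_eq_bot.2 inf_le_right, commutator_bot_left]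
    have h3 := comm_eq_bot.1 (three_subgroup h1 h2)
    refine cent_symm (coprime_cent_of_comm n1 (coprime_mono hc le_rfl inf_le_left)
      (Or.inr (pg_sol hq (pg_le pT inf_le_left))) ?_)
    rw [comm_comm]
    exact (le_inf ((comm_le_right n1).trans inf_le_left) h3).trans h
  rw [← e]; exact inf_le_right

theorem odd_pg_bot (hq : q.Prime) (h1 : IsPGroup q X) (h2 : X ≤ piCoreOf {q}ᶜ H) : X = ⊥ :=
  pg_eq_bot hq h1 (not_dvd_of_le (pcore_not_dvd hq H) h2)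

theorem M2.oA (h : M2 r A G) (hH : H < G) (hA : A ≤ N_(H)) : St r A (piCoreOf {2}ᶜ H) :=
  h.toSt.sub ((pcore_le _ _).trans hH.le) (norm_pcore _ hA)

theorem M2.sn (h : M2 r A G) (hH : H < G) (hA : A ≤ N_(H)) (hq : q.Prime) :
    Syl 2 A H ≤ N_(Syl q A (piCoreOf {2}ᶜ H)) :=
  (h.oA hH hA).syl_n2 hq (sol_of_le (h.sol H hH hA) (pcore_le _ _)) (syl_le.trans (le_norm_pcore _ _))
    ((h.toSt.sub hH.le hA).syl_n Nat.prime_two)
    (pg_coprime Nat.prime_two ((h.toSt.sub hH.le hA).syl_pg Nat.prime_two) (pcore_not_dvd Nat.prime_two H))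

theorem M2.fr (h : M2 r A G) (hH : H < G) (hA : A ≤ N_(H)) (h1 : H ⊓ N_(Syl 2 A H) ≤ K)
    (h2 : ∀ q : ℕ, q.Prime → q ≠ 2 → Syl q A (piCoreOf {2}ᶜ H) ≤ K) : H ≤ K := by
  have hS := (h.toSt.sub hH.le hA).syl Nat.prime_two
  have hle : Syl 2 A H ⊔ piCoreOf {2}ᶜ H ≤ H := sup_le syl_le (pcore_le _ _)
  rw [← sylow_frattini Nat.prime_two (hS.sub le_sup_left hle) hle (h.l2 H hH hA)]
  refine sup_le (sup_le ((le_inf syl_le (le_norm _)).trans h1) ((h.oA hH hA).gen fun q hq => ?_)) h1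
  by_cases h3 : q = 2
  · subst h3; rw [odd_pg_bot hq ((h.oA hH hA).syl_pg hq) syl_le]; exact bot_le
  · exact h2 q hq h3

theorem M2.k0 (h : M2 r A G) (hH : H < G) (hA : A ≤ N_(H)) (hT : Syl 2 A H = Syl 2 A G) : H ≤ LL A G := by
  refine h.fr hH hA ?_ fun q hq h2 => ?_
  · rw [hT]; exact le_sup_of_le_left (inf_le_inf_right _ hH.le)
  · refine le_sup_of_le_right ((le_vq ?_ ?_).trans (vq_vv hq h2))
    · exact h.toSt.syl_mono hq ((pcore_le _ _).trans hH.le) (norm_pcore _ hA)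
    · rw [← hT]; exact h.sn hH hA hq

theorem R2.exne (h : R2 r A G) (hX : X ≤ G) (hA : A ≤ N_(X)) (h0 : X ≠ ⊥) : ∃ a ∈ A, a ≠ 1 ∧ X ⊓ C_[a] ≠ ⊥ := by
  by_contra hn
  push Not at hn
  exact h0 (eq_bot_iff.2 (h.dec hX hA fun a ha h1 => (hn a ha h1).le))

theorem ks : KS.{u} := by
  intro Γ _ _ r A G h
  have p2 := Nat.prime_two
  have hs := h.toSt
  suffices H : ∀ S : Subgroup Γ, ∀ H : Subgroup Γ, H < G → A ≤ N_(H) → Syl 2 A H = S → S ≠ ⊥ → H ≤ LL A G from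
    fun H0 h1 h2 h3 => H _ H0 h1 h2 rfl (((hs.sub h1.le h2).syl p2).ne_bot' p2 h3)
  intro S
  induction S using WellFoundedGT.induction with
  | ind S ih =>
  intro H hH hA hS h0
  set T := Syl 2 A G with hT
  have pT : IsPGroup 2 T := hs.syl_pg p2
  have nT : A ≤ N_(T) := hs.syl_n p2
  have TG : T ≤ G := syl_le
  have ST : S ≤ T := hS ▸ hs.syl_mono p2 hH.le hA
  have nS : A ≤ N_(S) := hS ▸ (hs.sub hH.le hA).syl_n p2
  by_cases hST : S = T
  · exact h.k0 hH hA (hS.trans hST)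
  set S1 := T ⊓ N_(S) with hS1
  have lt1 : S < S1 := nil_lt_norm (pg_nil p2 pT) (lt_of_le_of_ne ST hST)
  have n1 : A ≤ N_(S1) := norm_inf nT (norm_norm nS)
  have p1 : IsPGroup 2 S1 := pg_le pT inf_le_left
  have G1 : S1 ≤ G := inf_le_left.trans TG
  have key : ∀ K : Subgroup Γ, K ≤ T → K ≠ ⊥ → A ≤ N_(K) → S1 ≤ N_(K) → G ⊓ N_(K) ≤ LL A G := by
    intro K hK hK0 nK n1K
    have hn : A ≤ N_(G ⊓ N_(K)) := norm_inf hs.nG (norm_norm nK)
    have := le_syl (le_inf G1 n1K) p1 n1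
    exact ih _ (lt_of_lt_of_le lt1 this) _ (h.toMn.lt (hK.trans TG) hK0 (pg_sol p2 (pg_le pT hK))) hn rfl
      (ne_bot_mono h0 (lt1.le.trans this))
  refine h.fr hH hA ?_ fun q hq h2 => ?_
  · rw [hS]; exact (inf_le_inf_right _ hH.le).trans (key S ST h0 nS inf_le_right)
  set V := Syl q A (piCoreOf {2}ᶜ H) with hV
  have pV : IsPGroup q V := (h.oA hH hA).syl_pg hq
  have nV : A ≤ N_(V) := (h.oA hH hA).syl_n hq
  have VG : V ≤ G := (syl_le.trans (pcore_le _ _)).trans hH.le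
  have SV : S ≤ N_(V) := hS ▸ h.sn hH hA hq
  have nZ : A ≤ N_(S ⊓ C_(S1)) := norm_inf nS (norm_cent n1)
  obtain ⟨a, ha, ha1, hW0⟩ := h.r2.exne (inf_le_left.trans (ST.trans TG)) nZ
    (pg_fix_ne_bot p2 p1 (pg_le pT ST) inf_le_right h0)
  set W := S ⊓ C_(S1) ⊓ C_[a] with hW
  have WS : W ≤ S := inf_le_left.trans inf_le_left
  have W1 : W ≤ C_(S1) := inf_le_left.trans inf_le_right
  have nW : A ≤ N_(W) := norm_inf nZ (hs.nc ha)
  have pW : IsPGroup 2 W := pg_le pT (WS.trans ST)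
  have WG : W ≤ G := WS.trans (ST.trans TG)
  have WV : W ≤ N_(V) := WS.trans SV
  have cop : (Nat.card W).Coprime (Nat.card V) := pg_coprime_ne p2 hq pW pV (Ne.symm h2)
  rw [← coprime_comm_sup_cent WV cop (Or.inl (pg_sol p2 pW))]
  refine sup_le ?_ ((inf_le_inf VG (cent_le_norm _)).trans (key W (WS.trans ST) hW0 nW (le_norm_of_cent (cent_symm W1))))
  have V1 : ⁅V, W⁆ ≤ V := comm_le_left WV
  have hz : zpowers a ≤ A := zpowers_le.2 ha
  have c1 : ⁅S1, zpowers a⁆ ≤ C_(⁅V, W⁆) := by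
    refine h.r2.dec2 p2 G1 p1 n1 ha ha1 fun b hi => ?_
    have nF : A ≤ N_(S1 ⊓ C_[b]) := norm_inf n1 (hs.nc hi.rr)
    refine (comm_le_left nF).trans (cent_symm ?_)
    exact h.r2.gc h.gl hq p2 p2 h2 h2 hi (V1.trans VG) (pg_le pV V1) (norm_comm nV nW) (le_inf WG inf_le_right) pW nW
      (hs.two' WG pW nW) (right_le_norm_comm _ _) (coprime_comm_comm WV cop (Or.inl (pg_sol p2 pW)))
      (inf_le_inf_right _ G1) (pg_le p1 inf_le_left) nF (hs.two' (inf_le_left.trans G1) (pg_le p1 inf_le_left) nF)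
      (W1.trans (cent_anti inf_le_left))
  by_cases hb : ⁅S1, zpowers a⁆ = ⊥
  · exfalso
    have e1 : S1 ≤ C_(zpowers a) := comm_eq_bot.1 hb
    refine h.t1 a ha ha1 ?_
    rw [← cent_zpowers]
    refine axb p2 pT (hz.trans nT) (hs.cop' hz TG) (le_trans ?_ e1)
    exact inf_le_inf_left _ ((cent_anti (le_inf ST (lt1.le.trans e1))).trans (cent_le_norm _))
  · exact (le_inf (V1.trans VG) (le_norm_of_cent (cent_symm c1))).trans
      (key _ ((comm_le_left (hz.trans n1)).trans inf_le_left) hb (norm_comm n1 (hs.nz hz)) (left_le_norm_comm _ _))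

end Cfsg.Agent.H06.PT
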