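import Cfsg.Agent.H06.PT2
set_option autoImplicit false
open Cfsg BG Subgroup
open scoped commutatorElement
universe u
namespace Cfsg.Agent.H06.PT

variable {Γ : Type u} [Group Γ] [Finite Γ] {r q s t w : ℕ} {A B G H K L X Y V W F D P T O : Subgroup Γ} {a b : Γ}

omit [Finite Γ] in
theorem Od.mono (h : Od H) (hK : K ≤ H) : Od K := fun U D hU hD => h U D (hU.trans hK) (hD.trans hK)

theorem od_of_odd (h : ¬ 2 ∣ Nat.card H) : Od H := fun U D _ hD _ pD _ => by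
  rw [pg_eq_bot Nat.prime_two pD (not_dvd_of_le h hD)]; exact bot_le

/-- `T O` normal in `L` and `T` centralizing a Sylow `3`-subgroup of `O` -/
theorem od_of (hT : IsSylowIn 2 T L) (hO : O ≤ L) (nO : L ≤ N_(O)) (oO : ¬ 2 ∣ Nat.card O) (hn : L ≤ N_(T ⊔ O))
    (hV : IsSylowIn 3 V O) (hc : T ≤ C_(V)) : Od L := by
  intro U D hU hD pU pD hDU
  have p2 := Nat.prime_two
  have p3 := Nat.prime_three
  obtain ⟨g, hg, hDg⟩ := sylow_subJ p2 hT pD hD
  have DM : D ≤ T ⊔ O := hDg.trans (cj_le_of_mem_norm le_sup_left (hn hg))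
  have h1 : ⁅U, D⁆ ≤ U := comm_le_left hDU
  have h2 : ⁅U, D⁆ ≤ T ⊔ O := (comm_mono le_rfl DM).trans (comm_le_right (hU.trans hn))
  have hall : IsPiHallOf {2}ᶜ O (O ⊔ T) :=
    hall_sup_left ((isPi_compl p2).2 oO) (by rw [compl_compl]; exact hT.isPi) (hT.le.trans nO)
  rw [sup_comm] at hall
  have h3 : ⁅U, D⁆ ≤ O := hall.le_of_normal ((sup_le hT.le hO).trans nO)
    (isPi_of_pg p3 (pg_le pU h1) (by simp)) h2
  have cop : (Nat.card D).Coprime (Nat.card O) := pg_coprime p2 pD oO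
  obtain ⟨P, hP, nP, lP⟩ := coprime_sylow_superset p3 (Or.inl (pg_sol p2 pD)) (hD.trans nO) cop (pg_le pU h1) h3
    (right_le_norm_comm _ _)
  have c1 : D ≤ C_(cj g V) := by rw [← cj_cent]; exact hDg.trans (cj_mono g hc)
  obtain ⟨c, hc', e⟩ := coprime_sylow_trans p3 (Or.inl (pg_sol p2 pD)) (hD.trans nO) cop (hV.cj_of_norm (nO hg)) hP
    (le_norm_of_cent c1) nP
  have c2 : D ≤ C_(P) := by rw [e, ← cj_cent, ← cj_of_mem_cent hc'.2]; exact cj_mono c c1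
  exact coprime_cent_of_comm hDU (pg_coprime_ne p2 p3 pD pU (by norm_num)) (Or.inl (pg_sol p2 pD))
    (lP.trans (cent_symm c2))

theorem iii : IIIS.{u} := by
  intro Γ _ _ r A G h hL hK K hKP hK0 nK hPK
  have p2 := Nat.prime_two
  have p3 := Nat.prime_three
  have hs := h.toSt
  by_cases he : 2 ∣ Nat.card ↥(G ⊓ N_(K))
  swap
  · exact od_of_odd he
  have loc : ∀ K : Subgroup Γ, K ≤ G → K ≠ ⊥ → Group.IsSolvable K → A ≤ N_(K) → 2 ∣ Nat.card ↥(G ⊓ N_(K)) →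
      G ⊓ N_(K) ≤ LL A G := fun K h1 h2 h3 h4 h5 =>
    hK _ (h.toMn.lt h1 h2 h3) (norm_inf hs.nG (norm_norm h4)) h5
  have HL := loc K (hKP.trans syl_le) hK0 (pg_sol p3 (pg_le (hs.syl_pg p3) hKP)) nK he
  refine Od.mono ?_ HL
  have P3L : Syl 3 A G ≤ LL A G := (le_inf syl_le hPK).trans HL
  set L := LL A G with hLdef
  set T := Syl 2 A G with hT
  have pT : IsPGroup 2 T := hs.syl_pg p2
  have nT : A ≤ N_(T) := hs.syl_n p2
  have TG : T ≤ G := syl_le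
  have lt : L < G := lt_of_le_of_ne ll_le hL
  have nL : A ≤ N_(L) := hs.ll_A
  have NL : G ⊓ N_(T) ≤ L := le_sup_left
  have TL : T ≤ L := (le_inf TG (le_norm _)).trans NL
  have eT : Syl 2 A L = T := by rw [hs.syl_eq p2 lt.le nL]; exact inf_eq_right.2 TL
  obtain ⟨a0, ha0, ha01, hn0⟩ : ∃ a ∈ A, a ≠ 1 ∧ ¬ G ⊓ C_[a] ≤ L := by
    by_contra hn
    push Not at hn
    exact lt.not_ge (h.r2.dec le_rfl hs.nG hn)
  have n0 : A ≤ N_(G ⊓ C_[a0]) := norm_inf hs.nG (hs.nc ha0)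
  have odd0 : ¬ 2 ∣ Nat.card ↥(G ⊓ C_[a0]) := fun h2 => hn0 (hK _ (h.toMn.ca ha0 ha01) n0 h2)
  have s0 := hs.sub inf_le_left n0
  obtain ⟨p, hp, hnp⟩ : ∃ p : ℕ, p.Prime ∧ ¬ Syl p A (G ⊓ C_[a0]) ≤ L := by
    by_contra hn
    push Not at hn
    exact hn0 (s0.gen hn)
  have p3' : p ≠ 3 := by rintro rfl; exact hnp ((hs.syl_mono p3 inf_le_left n0).trans P3L)
  have hE : ¬ ⁅Syl p A (G ⊓ C_[a0]), A⁆ ≤ L := fun hE => hnp (by
    rw [← s0.split syl_le (s0.syl_n hp)]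
    refine sup_le hE (le_trans ?_ NL)
    exact le_inf ((inf_le_left.trans syl_le).trans inf_le_left)
      ((inf_le_inf_right _ (syl_le.trans inf_le_left)).trans (hs.c_n p2)))
  set V := Syl 3 A (piCoreOf {2}ᶜ L) with hV
  have pV : IsPGroup 3 V := (h.oA lt nL).syl_pg p3
  have nV : A ≤ N_(V) := (h.oA lt nL).syl_n p3
  have VG : V ≤ G := (syl_le.trans (pcore_le _ _)).trans lt.le
  have TV : T ≤ N_(V) := eT ▸ h.sn lt nL p3
  have cc : ∀ U ≤ T, ⁅⁅V, U⁆, U⁆ = ⁅V, U⁆ := fun U hU => coprime_comm_comm (hU.trans TV)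
    (pg_coprime_ne p2 p3 (pg_le pT hU) pV (by norm_num)) (Or.inl (pg_sol p2 (pg_le pT hU)))
  have star : ∀ a ∈ A, a ≠ 1 → ∀ U Y : Subgroup Γ, U ≤ T ⊓ C_[a] → A ≤ N_(U) → Y ≤ T → Y ≠ ⊥ → Y ≤ C_(⁅V, U⁆) →
      U ≤ C_(V) := by
    intro a ha ha1 U Y hU nU hY hY0 hYc
    have UT : U ≤ T := hU.trans inf_le_left
    have pU : IsPGroup 2 U := pg_le pT UT
    have UG : U ≤ G ⊓ C_[a] := hU.trans (inf_le_inf_right _ TG)
    rcases h.r2.or ha ha1 ha0 ha01 with hi | he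
    swap
    · rw [pg_eq_bot p2 pU (not_dvd_of_le odd0 (he ▸ UG))]; exact bot_le
    have X1 : ⁅V, U⁆ ≤ V := comm_le_left (UT.trans TV)
    have nX : A ≤ N_(⁅V, U⁆) := norm_comm nV nU
    have nX0 : A ≤ N_(⁅V, U⁆ ⊓ C_[a0]) := norm_inf nX (hs.nc ha0)
    have F1 : ⁅⁅V, U⁆ ⊓ C_[a0], A⁆ ≤ ⁅V, U⁆ := (comm_le_left nX0).trans inf_le_left
    by_cases hF : ⁅⁅V, U⁆ ⊓ C_[a0], A⁆ = ⊥
    · have := h.r2.gk h.gl p3 p2 (by norm_num) hi (X1.trans VG) (pg_le pV X1) nX UG pU nU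
        (hs.two' (UT.trans TG) pU nU) (right_le_norm_comm _ _) (cc U UT) nU le_rfl (by rw [hF]; exact bot_le)
      refine cent_symm (comm_eq_bot.1 (eq_bot_iff.2 ?_))
      rw [← BG.inf_eq_bot_of_coprime (pg_coprime_ne p2 p3 pU pV (by norm_num))]
      exact le_inf this X1
    · exfalso
      have FL := loc _ (F1.trans (X1.trans VG)) hF (pg_sol p3 (pg_le pV (F1.trans X1))) (right_le_norm_comm _ _)
        ((pg_dvd p2 (pg_le pT hY) hY0).trans (card_dvd (le_inf (hY.trans TG)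
          (le_norm_of_cent (hYc.trans (cent_anti F1))))))
      refine hE (le_trans (le_inf ((comm_le_left (s0.syl_n hp)).trans (syl_le.trans inf_le_left)) (le_norm_of_cent ?_)) FL)
      exact h.r2.c1 hp p3 p3' ha0 ha01 syl_le (inf_le_inf_right _ (X1.trans VG)) (s0.syl_pg hp)
        (pg_le pV (inf_le_left.trans X1)) (s0.syl_n hp) nX0
  have TC : T ≤ C_(V) := by
    by_cases hc : T ⊓ C_(V) = ⊥
    · exfalso
      have T0 : T ≠ ⊥ := fun h0 => h.t1 a0 ha0 ha01 (by rw [← hT, h0]; exact bot_le)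
      have nZ : A ≤ N_(T ⊓ C_(T)) := norm_inf nT (norm_cent nT)
      obtain ⟨a, ha, ha1, hW0⟩ := h.r2.exne (inf_le_left.trans TG) nZ (pg_center_ne_bot p2 pT T0)
      set W := T ⊓ C_(T) ⊓ C_[a] with hW
      have WT : W ≤ T := inf_le_left.trans inf_le_left
      have nW : A ≤ N_(W) := norm_inf nZ (hs.nc ha)
      have pW : IsPGroup 2 W := pg_le pT WT
      obtain ⟨b, hi, hb⟩ : ∃ b, Ind A a b ∧ T ⊓ C_[b] ≠ ⊥ := by
        by_contra hn
        push Not at hn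
        refine h.t1 a ha ha1 (h.r2.dec TG nT fun b hb hb1 => ?_)
        rcases h.r2.or ha ha1 hb hb1 with hi | he
        · rw [hn b hi]; exact bot_le
        · rw [he]; exact inf_le_right
      have nF : A ≤ N_(T ⊓ C_[b]) := norm_inf nT (hs.nc hi.rr)
      have X1 : ⁅V, W⁆ ≤ V := comm_le_left (WT.trans TV)
      have := h.r2.gc h.gl p3 p2 p2 (by norm_num) (by norm_num) hi (X1.trans VG) (pg_le pV X1) (norm_comm nV nW)
        (le_inf (WT.trans TG) inf_le_right) pW nW (hs.two' (WT.trans TG) pW nW) (right_le_norm_comm _ _) (cc W WT)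
        (inf_le_inf_right _ TG) (pg_le pT inf_le_left) nF (hs.two' (inf_le_left.trans TG) (pg_le pT inf_le_left) nF)
        ((inf_le_left.trans inf_le_right).trans (cent_anti inf_le_left))
      have h2 := star a ha ha1 W _ (le_inf WT inf_le_right) nW inf_le_left hb (cent_symm this)
      exact hW0 (eq_bot_mono hc (le_inf WT h2))
    · refine h.r2.dec TG nT fun a ha ha1 => star a ha ha1 _ _ le_rfl (norm_inf nT (hs.nc ha)) inf_le_left hc ?_
      exact inf_le_right.trans (cent_anti (comm_le_left (inf_le_left.trans TV)))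
  have hn := h.l2 L lt nL
  rw [eT] at hn
  exact od_of ((hs.syl p2).sub TL lt.le) (pcore_le _ _) (le_norm_pcore _ _) (pcore_not_dvd p2 _) hn
    ((h.oA lt nL).syl p3) TC

theorem mnS (hG : GLS.{u}) (h1 : R1S.{u}) (h3 : L3S.{u}) (h2 : L2S.{u}) (hO : OddS.{u}) (hE : EndS.{u})
    (ha : IIa.{u}) (hb : IIb.{u}) : MnS.{u} := by
  intro Γ _ _ r A G h hc
  have p2 := Nat.prime_two
  have p3 := Nat.prime_three
  have hs := h.toSt
  obtain ⟨e1, e2⟩ := hE Γ r A G _ h (hs.syl p2) (hs.syl_n p2)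
  refine e1 (hO Γ G _ (hs.syl p3) fun K hK hK0 hn => ?_)
  have nK : A ≤ N_(K) := (hs.syl_n p3).trans hn
  rcases hc with hc | hc
  · have lt := h.lt (hK.trans syl_le) hK0 (pg_sol p3 (pg_le (hs.syl_pg p3) hK))
    have nH : A ≤ N_(G ⊓ N_(K)) := norm_inf hs.nG (norm_norm nK)
    have s0 := hs.sub lt.le nH
    have h4 := h1 Γ r 2 A _ _ s0 hc (h.sol _ lt nH) p2 syl_le (s0.syl_pg p2) (s0.syl_n p2)
    rw [s0.two' syl_le (s0.syl_pg p2) (s0.syl_n p2)] at h4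
    have h5 := (s0.syl p2).eq_of_pg p2 (pcore_pg p2 _) h4 (pcore_le _ _)
    have h6 : G ⊓ N_(K) ≤ N_(Syl 2 A (G ⊓ N_(K))) := by rw [← h5]; exact le_norm_pcore _ _
    exact od_of (O := ⊥) (V := ⊥) (s0.syl p2) bot_le le_norm_bot (by simp) (by rwa [sup_bot_eq])
      (sylow_bot p3 (by simp)) le_cent_bot
  · have hca : ∀ a ∈ A, A ≤ N_(G ⊓ C_[a]) := fun a ha => norm_inf hs.nG (hs.nc ha)
    have r2 : R2 r A G := n1 h1 hs hc fun a ha ha1 => h.sol _ (h.ca ha ha1) (hca a ha)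
    have m2 : M2 r A G := by
      refine ⟨h, r2, hG, h3, fun H hH hA => h2 Γ r A H (hs.sub hH.le hA) hc (h.sol H hH hA), fun a ha ha1 hT => ?_⟩
      refine e2 a ha hT ?_
      have h4 := r2.cm a ha ha1 2 _ p2 (le_inf syl_le hT) (hs.syl_pg p2) (hs.syl_n p2)
      rw [hs.two' syl_le (hs.syl_pg p2) (hs.syl_n p2)] at h4
      rw [← (hs.syl p2).eq_of_pg p2 (pcore_pg p2 _) h4 ((pcore_le _ _).trans inf_le_left)]
      exact le_norm_pcore _ _
    have hL : LL A G ≠ G := fun he => hb Γ r A G m2 he (ha Γ r A G m2 he).1 (ha Γ r A G m2 he).2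
    exact iii Γ r A G m2 hL (ks Γ r A G m2) K hK hK0 nK ((le_norm _).trans hn)

end Cfsg.Agent.H06.PT
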